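import Cfsg.Agent.H90.X.ModelSub3
import Cfsg.Agent.H89.Normalizer
import Cfsg.Agent.H90.Model
import Cfsg.Agent.H88.NormSat

-- helper90: verbatim copy of `Cfsg.Agent.H29.ModelRad` under the namespace `Cfsg.Agent.H90.X.MS`, built on
-- helper31's copy `Cfsg.Agent.H31.X.CharP2` (so that it can be loaded together with
-- `Cfsg.Agent.H29.ThompsonInt`, which declares the same name `Cfsg.Agent.H29.map_symm_map` as
-- `Cfsg.Agent.H29.Transport`).

set_option autoImplicit false
set_option maxHeartbeats 1600000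

/-!
Consequences of the submodel theorem: transfer of `H`-freeness between models, and the criterion
"`O_p` of a model of `N_F(Q)` is the image of `Q`" for `Q` to be radical.
-/

namespace Cfsg.Agent.H90.X.MS

open Cfsg Cfsg.FusionSystem Cfsg.Agent.H86 Cfsg.Agent.H88

universe u

variable {Ω : Type u} [Group Ω] {S : Subgroup Ω}

/-- Overgroups of centric subgroups are centric. -/
theorem centric_of_le {F : FusionSystem S} {Q R : Subgroup Ω} (hQ : F.IsCentric Q) (hQR : Q ≤ R)
    (hRS : R ≤ S) : F.IsCentric R := by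
  refine ⟨hRS, fun R' hR' => ?_⟩
  obtain ⟨f, hf, rfl⟩ := isConj_iff.1 hR'
  have hfQ : Mor F Q f := hf.restrict hQR
  have h1 := hQ.2 (imgS Q f) (isConj_iff.2 ⟨f, hfQ, rfl⟩)
  intro x hx
  obtain ⟨hxS, hxc⟩ := mem_centralizerIn_iff.1 hx
  have h2 : x ∈ centralizerIn S (imgS Q f) :=
    mem_centralizerIn_iff.2 ⟨hxS, fun y hy => hxc y (hf.imgS_mono hQR hy)⟩
  exact hf.imgS_mono hQR (h1 h2)

theorem centric_imgS {F : FusionSystem S} {Q : Subgroup Ω} {f : Ω → Ω} (hQ : F.IsCentric Q)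
    (hf : Mor F Q f) : F.IsCentric (imgS Q f) :=
  ⟨hf.imgS_le, fun Q' hQ' => hQ.2 Q' (isConj_trans (isConj_iff.2 ⟨f, hf, rfl⟩) hQ')⟩

/-- If some model of `E` is a subgroup of an `H`-free group, every model of `E` is `H`-free. -/
theorem not_involves_of_models {T : Subgroup Ω} [Finite T] {p : ℕ} [Fact p.Prime]
    (hT : IsPGroup p T) {E : FusionSystem T} {L₁ : Type*} [Group L₁] {M : Subgroup L₁}
    {ι' : T →* M} (hM : E.IsModel p ↥M ι') {H : Type*} [Group H] (hfree : ¬ Involves H L₁)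
    {L : Type*} [Group L] {ι : T →* L} (hL : E.IsModel p L ι) : ¬ Involves H L := by
  intro hinv
  obtain ⟨e, -⟩ := Cfsg.Agent.H87.model_unique p hT E (Cfsg.Agent.H87.constrained_of_model hM)
    ι ι' hL hM
  exact hfree (Cfsg.Agent.H52.involves_of_injective (M.subtype.comp e.toMonoidHom)
    (M.subtype_injective.comp e.injective) hinv)

/-- If `O_p` of a model of `N_F(Q)` lies in the image of the centric subgroup `Q`, then `Q` is
radical. -/
theorem radical_of_pCore_le [Finite S] {p : ℕ} [Fact p.Prime] (hS : IsPGroup p S)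
    {F : FusionSystem S} {Q : Subgroup Ω} (hQc : F.IsCentric Q)
    {N : FusionSystem (normalizerIn S Q)} (hN : F.IsNormalizerSystem Q N)
    {L : Type*} [Group L] {ι : ↥(normalizerIn S Q) →* L} (hL : N.IsModel p L ι)
    (hle : pCore p L ≤ imG ι Q) : F.IsRadical p Q := by
  classical
  have hQS : Q ≤ S := hQc.1
  have hQT : Q ≤ normalizerIn S Q := le_normalizerIn hQS
  obtain ⟨hfinL, hreal, ⟨Tsyl, hTsyl⟩, hcen⟩ := id hL
  have hιinj : Function.Injective ι := hreal.1
  obtain ⟨hnor, hcenQ⟩ := Cfsg.Agent.H87.model_normal_centric hL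
    (normalizerSystem_isNormal hQS hN) (normalizerSystem_isCentric hQc hN)
  have hnor' : (imG ι Q).Normal := hnor
  have hcenQ' : Subgroup.centralizer ((imG ι Q : Subgroup L) : Set L) ≤ imG ι Q := hcenQ
  have hfinQ : Finite Q := finite_of_le hQS
  have hfinT : Finite ↥(normalizerIn S Q) := finite_of_le (S := S) inf_le_left
  have hTp : IsPGroup p ↥(normalizerIn S Q) := hS.to_le inf_le_left
  have hfinA : Finite (F.autGroup Q) := inferInstance
  refine ⟨hQS, le_antisymm ?_ ?_⟩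
  · rintro _ ⟨α, hα, rfl⟩
    -- the subgroup of `L` inducing elements of `O_p(Aut_F(Q))`
    let X : Subgroup L :=
      { carrier := {g | ∃ β : F.autGroup Q, β ∈ pCore p (F.autGroup Q) ∧
          ∀ x : Q, tot ι (((β : MulAut Q) x : Q) : Ω) = g * tot ι (x : Ω) * g⁻¹}
        mul_mem' := by
          rintro g₁ g₂ ⟨β₁, hβ₁, h₁⟩ ⟨β₂, hβ₂, h₂⟩
          refine ⟨β₁ * β₂, Subgroup.mul_mem _ hβ₁ hβ₂, fun x => ?_⟩
          have e : (((β₁ * β₂ : F.autGroup Q) : MulAut Q) x) =
              (β₁ : MulAut Q) ((β₂ : MulAut Q) x) := rfl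
          rw [e, h₁, h₂]
          group
        one_mem' := ⟨1, Subgroup.one_mem _, fun x => by
          show tot ι (x : Ω) = 1 * tot ι (x : Ω) * 1⁻¹
          group⟩
        inv_mem' := by
          rintro g ⟨β, hβ, h⟩
          refine ⟨β⁻¹, Subgroup.inv_mem _ hβ, fun x => ?_⟩
          have h1 := h (((β⁻¹ : F.autGroup Q) : MulAut Q) x)
          have e : (β : MulAut Q) (((β⁻¹ : F.autGroup Q) : MulAut Q) x) = x :=
            MulAut.apply_inv_self _ _ _
          rw [e] at h1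
          rw [h1]
          group }
    have hXmem : ∀ g : L, g ∈ X ↔ ∃ β : F.autGroup Q, β ∈ pCore p (F.autGroup Q) ∧
        ∀ x : Q, tot ι (((β : MulAut Q) x : Q) : Ω) = g * tot ι (x : Ω) * g⁻¹ := fun g => Iff.rfl
    -- `X` is normal
    have hXn : X.Normal := by
      constructor
      intro g hg h
      obtain ⟨β, hβ, hβg⟩ := (hXmem g).1 hg
      have hex : ∀ x ∈ Q, ∃ z ∈ Q, tot ι z = h * tot ι x * h⁻¹ := by
        intro x hx
        have h1 : h * tot ι x * h⁻¹ ∈ imG ι Q := hnor'.conj_mem _ (tot_mem_imG hx (hQT hx)) h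
        obtain ⟨z, hz, -, he⟩ := mem_imG.1 h1
        exact ⟨z, hz, he⟩
      choose! γf hγQ hγh using hex
      have hγN : Mor N Q γf :=
        (real_mor hreal).2 ⟨hQT, fun x hx => hQT (hγQ x hx), h, fun x hx => hγh x hx⟩
      have hγF : Mor F Q γf := mor_of_mor_normalizerSystem hN hγN
      have himg : imgS Q γf = Q := imgS_eq_of_maps hγF hγQ
      have hγmem := mkAut_mem hγF himg
      have hγapp : ∀ x : Q, tot ι ((mkAut hγF himg x : Q) : Ω) = h * tot ι (x : Ω) * h⁻¹ :=
        fun x => hγh x x.2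
      rw [hXmem]
      refine ⟨⟨mkAut hγF himg, hγmem⟩ * β * ⟨mkAut hγF himg, hγmem⟩⁻¹,
        (Cfsg.Agent.H86.pCore_normal p (F.autGroup Q)).conj_mem β hβ _, fun x => ?_⟩
      have e : (((⟨mkAut hγF himg, hγmem⟩ * β * ⟨mkAut hγF himg, hγmem⟩⁻¹ : F.autGroup Q) :
          MulAut Q) x) = mkAut hγF himg ((β : MulAut Q) ((mkAut hγF himg)⁻¹ x)) := rfl
      have h1 := hγapp ((mkAut hγF himg)⁻¹ x)
      have e2 : mkAut hγF himg ((mkAut hγF himg)⁻¹ x) = x := MulAut.apply_inv_self _ _ _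
      rw [e2] at h1
      have h2 : tot ι ((((mkAut hγF himg)⁻¹ x : Q)) : Ω) = h⁻¹ * tot ι (x : Ω) * h := by
        rw [h1]
        group
      rw [e, hγapp, hβg, h2]
      group
    -- `X` is a `p`-group
    have hXp : IsPGroup p X := by
      rintro ⟨g, hg⟩
      obtain ⟨β, hβ, hβg⟩ := (hXmem g).1 hg
      obtain ⟨k, hk⟩ := (Cfsg.Agent.H86.pCore_isPGroup p (F.autGroup Q)) ⟨β, hβ⟩
      have hk' : (β : MulAut Q) ^ p ^ k = 1 := by
        have := congrArg Subtype.val (congrArg Subtype.val hk)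
        simpa using this
      have hpow : ∀ n : ℕ, ∀ x : Q, tot ι ((((β : MulAut Q) ^ n) x : Q) : Ω) =
          g ^ n * tot ι (x : Ω) * (g ^ n)⁻¹ := by
        intro n
        induction n with
        | zero => intro x; simp
        | succ n ih =>
          intro x
          have e : ((β : MulAut Q) ^ (n + 1)) x = ((β : MulAut Q) ^ n) ((β : MulAut Q) x) := by
            rw [pow_succ]
            rfl
          rw [e, ih, hβg, pow_succ]
          group
      have hcent : g ^ p ^ k ∈ Subgroup.centralizer ((imG ι Q : Subgroup L) : Set L) := by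
        rw [Subgroup.mem_centralizer_iff]
        intro y hy
        obtain ⟨x, hx, hxT, rfl⟩ := mem_imG.1 hy
        have h1 := hpow (p ^ k) ⟨x, hx⟩
        rw [hk'] at h1
        have h2 : tot ι x = g ^ p ^ k * tot ι x * (g ^ p ^ k)⁻¹ := h1
        calc tot ι x * g ^ p ^ k = (g ^ p ^ k * tot ι x * (g ^ p ^ k)⁻¹) * g ^ p ^ k := by rw [← h2]
          _ = g ^ p ^ k * tot ι x := by group
      obtain ⟨q, hq, hqT, hqe⟩ := mem_imG.1 (hcenQ' hcent)
      obtain ⟨m, hm⟩ := hTp ⟨q, hqT⟩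
      refine ⟨k + m, Subtype.ext ?_⟩
      show g ^ p ^ (k + m) = 1
      rw [pow_add, pow_mul, ← hqe, tot_of_mem ι hqT, ← map_pow, hm, map_one]
    have hXle : X ≤ imG ι Q := (Cfsg.Agent.H86.le_pCore hXn hXp).trans hle
    -- `α` is realized in `X`
    have hαM : Mor F Q (autFun Q (α : MulAut Q)) := (mem_autGroup_iff hQS _).1 α.2
    have hαN : Mor N Q (autFun Q (α : MulAut Q)) := by
      refine (mor_normalizerSystem_iff hN).2 ⟨hQT, fun x hx => hQT (autFun_mem _ hx),
        autFun Q (α : MulAut Q), ?_, fun _ _ => rfl, imgS_autFun hαM⟩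
      rw [sup_idem]
      exact hαM
    obtain ⟨-, -, g, hg⟩ := (real_mor hreal).1 hαN
    have hgX : g ∈ X := (hXmem g).2 ⟨α, hα, fun x => by
      rw [← autFun_apply]
      exact hg x x.2⟩
    obtain ⟨q, hq, hqT, hqe⟩ := mem_imG.1 (hXle hgX)
    rw [mem_inn_iff]
    refine ⟨q, hq, fun x => ?_⟩
    have h1 := hg x x.2
    rw [autFun_apply, ← hqe, ← tot_conj ι hqT (hQT x.2)] at h1
    exact tot_injOn hιinj (hQT ((α : MulAut Q) x).2)
      (Subgroup.mul_mem _ (Subgroup.mul_mem _ hqT (hQT x.2)) (Subgroup.inv_mem _ hqT)) h1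
  · intro β hβ
    have hβA : β ∈ F.autGroup Q := inn_le_autGroup F hQS hβ
    refine ⟨⟨β, hβA⟩, ?_, rfl⟩
    have hInnp : IsPGroup p (Inn Q) :=
      (autInducedBy_isPGroup (hS.to_le hQS) Q).to_le (inn_le_autInducedBy le_rfl)
    have hp : IsPGroup p ((Inn Q).subgroupOf (F.autGroup Q)) :=
      hInnp.comap_of_injective _ (F.autGroup Q).subtype_injective
    exact Cfsg.Agent.H86.le_pCore (inn_subgroupOf_normal F Q) hp (Subgroup.mem_subgroupOf.2 hβ)

end Cfsg.Agent.H90.X.MS
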