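import Cfsg.Agent.H90.X.ModelRad

-- helper90: verbatim copy of `Cfsg.Agent.H29.ModelRad2` under the namespace `Cfsg.Agent.H90.X.MS`, built on
-- helper31's copy `Cfsg.Agent.H31.X.CharP2` (so that it can be loaded together with
-- `Cfsg.Agent.H29.ThompsonInt`, which declares the same name `Cfsg.Agent.H29.map_symm_map` as
-- `Cfsg.Agent.H29.Transport`).

set_option autoImplicit false
set_option maxHeartbeats 1600000

/-!
The centric radical subgroups suffice for `H`-freeness of a saturated fusion system.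
-/

namespace Cfsg.Agent.H90.X.MS

open Cfsg Cfsg.FusionSystem Cfsg.Agent.H86 Cfsg.Agent.H88

universe u

variable {Ω : Type u} [Group Ω]

/-- The preimage in `T` of a subgroup of the realizing group. -/
def preG {T : Subgroup Ω} {G : Type*} [Group G] (ι : T →* G) (K : Subgroup G) : Subgroup Ω :=
  (K.comap ι).map T.subtype

theorem mem_preG {T : Subgroup Ω} {G : Type*} [Group G] {ι : T →* G} {K : Subgroup G} {x : Ω} :
    x ∈ preG ι K ↔ x ∈ T ∧ tot ι x ∈ K := by
  constructor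
  · rintro ⟨w, hw, rfl⟩
    refine ⟨w.2, ?_⟩
    show tot ι (w : Ω) ∈ K
    rw [tot_coe]
    exact hw
  · rintro ⟨hxT, hxK⟩
    refine ⟨⟨x, hxT⟩, ?_, rfl⟩
    rw [tot_of_mem ι hxT] at hxK
    exact hxK

theorem preG_le {T : Subgroup Ω} {G : Type*} [Group G] (ι : T →* G) (K : Subgroup G) :
    preG ι K ≤ T := fun _ hx => (mem_preG.1 hx).1

/-- The preimage of a normal subgroup of the realizing group contained in the image of `T` is
normal in the system. -/
theorem isNormal_preG {T : Subgroup Ω} [Finite T] {E : FusionSystem T} {G : Type*} [Group G]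
    {ι : T →* G} (hι : E.IsRealizedBy ι) {K : Subgroup G} (hK : K.Normal) (hKr : K ≤ ι.range) :
    E.IsNormal (preG ι K) := by
  classical
  rw [isNormal_iff]
  refine ⟨preG_le ι K, fun P f hf => ?_⟩
  obtain ⟨hP, hfT, g, hg⟩ := (real_mor hι).1 hf
  have hex : ∀ y ∈ P ⊔ preG ι K, ∃ z ∈ T, tot ι z = g * tot ι y * g⁻¹ := by
    let W : Subgroup T := (ι.range).comap ((MulAut.conj g).toMonoidHom.comp ι)
    have hW : ∀ (y : Ω) (hy : y ∈ T), (⟨y, hy⟩ : T) ∈ W ↔ g * tot ι y * g⁻¹ ∈ ι.range := by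
      intro y hy
      rw [tot_of_mem ι hy]
      rfl
    have hle : P ⊔ preG ι K ≤ W.map T.subtype := by
      refine sup_le ?_ ?_
      · intro y hy
        refine ⟨⟨y, hP hy⟩, (hW _ _).2 ?_, rfl⟩
        rw [← hg y hy, tot_of_mem ι (hfT y hy)]
        exact ⟨_, rfl⟩
      · intro y hy
        obtain ⟨hyT, hyK⟩ := mem_preG.1 hy
        exact ⟨⟨y, hyT⟩, (hW _ _).2 (hKr (hK.conj_mem _ hyK g)), rfl⟩
    intro y hy
    obtain ⟨w, hw, rfl⟩ := hle hy
    obtain ⟨z, hz⟩ := (hW w.1 w.2).1 hw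
    exact ⟨z, z.2, by rw [tot_coe]; exact hz⟩
  choose! f' hf'T hf'g using hex
  have hf' : Mor E (P ⊔ preG ι K) f' :=
    (real_mor hι).2 ⟨sup_le hP (preG_le ι K), hf'T, g, hf'g⟩
  refine ⟨f', hf', fun x hx => ?_, ?_⟩
  · exact tot_injOn hι.1 (hf'T x (Subgroup.mem_sup_left hx)) (hfT x hx)
      (by rw [hf'g x (Subgroup.mem_sup_left hx), hg x hx])
  · have hfin : Finite (preG ι K) := finite_of_le (preG_le ι K)
    refine imgS_eq_of_maps (hf'.restrict le_sup_right) (fun y hy => ?_)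
    obtain ⟨hyT, hyK⟩ := mem_preG.1 hy
    exact mem_preG.2 ⟨hf'T y (Subgroup.mem_sup_right hy), by
      rw [hf'g y (Subgroup.mem_sup_right hy)]
      exact hK.conj_mem _ hyK g⟩

end Cfsg.Agent.H90.X.MS

namespace Cfsg.Agent.H90.X.MS

open Cfsg Cfsg.FusionSystem Cfsg.Agent.H86 Cfsg.Agent.H88

universe u

variable {Ω : Type u} [Group Ω] {S : Subgroup Ω}

/-- A fully normalized conjugate of a subgroup, reached by a map defined on the normalizer. -/
theorem exists_fn_map [Finite S] {p : ℕ} [Fact p.Prime] (hS : IsPGroup p S) {F : FusionSystem S}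
    (hF : F.IsSaturated p) {U : Subgroup Ω} (hUS : U ≤ S) :
    ∃ χ, Mor F (normalizerIn S U) χ ∧ F.IsFullyNormalized (imgS U χ) := by
  obtain ⟨U', hUU', hU'fn⟩ := exists_fullyNormalized_conj F hUS
  obtain ⟨hU'fc, hU'fa⟩ := saturated_fullyNormalized hS hF hU'fn
  have hU'r := saturated_receptive_of_fullyCentralized hS hF hU'fc
  obtain ⟨χ, hχ, -, hχimg⟩ := exists_normalizer_map hS hU'fa hU'r hUU'
  exact ⟨χ, hχ, by rw [hχimg]; exact hU'fn⟩

theorem radical_suffices [Finite S] {p : ℕ} [Fact p.Prime] (hS : IsPGroup p S)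
    {F : FusionSystem S} (hF : F.IsSaturated p) {H : Type*} [Group H]
    (h : ∀ Q : Subgroup Ω, F.IsFullyNormalized Q → F.IsCentric Q → F.IsRadical p Q →
      ∀ N : FusionSystem (normalizerIn S Q), F.IsNormalizerSystem Q N →
      ∀ (L : Type u) [Group L] (ι : ↥(normalizerIn S Q) →* L), N.IsModel p L ι →
        ¬ Involves H L) :
    ∀ (n : ℕ) (Q : Subgroup Ω), Nat.card S - Nat.card Q = n → F.IsFullyNormalized Q →
      F.IsCentric Q → ∀ N : FusionSystem (normalizerIn S Q), F.IsNormalizerSystem Q N →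
      ∀ (L : Type u) [Group L] (ι : ↥(normalizerIn S Q) →* L), N.IsModel p L ι →
        ¬ Involves H L := by
  intro n
  induction n using Nat.strong_induction_on with
  | _ n ih =>
  intro Q hn hQfn hQc N hN L _ ι hL
  by_cases hrad : pCore p L ≤ imG ι Q
  · exact h Q hQfn hQc (radical_of_pCore_le hS hQc hN hL hrad) N hN L ι hL
  · obtain ⟨hfinL, hreal, ⟨Tsyl, hTsyl⟩, hcen⟩ := id hL
    have hιinj : Function.Injective ι := hreal.1
    have hQS : Q ≤ S := hQc.1
    have hTS : normalizerIn S Q ≤ S := inf_le_left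
    have hQT : Q ≤ normalizerIn S Q := le_normalizerIn hQS
    have hfinT : Finite ↥(normalizerIn S Q) := finite_of_le hTS
    have hTp : IsPGroup p ↥(normalizerIn S Q) := hS.to_le hTS
    have hOn : (pCore p L).Normal := Cfsg.Agent.H86.pCore_normal p L
    have hOr : pCore p L ≤ ι.range := by
      rw [← hTsyl]
      exact Cfsg.Agent.H87.pCore_le_sylow Tsyl
    have hQpn : N.IsNormal (preG ι (pCore p L)) := isNormal_preG hreal hOn hOr
    have hQpT : preG ι (pCore p L) ≤ normalizerIn S Q := preG_le ι _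
    have hQpS : preG ι (pCore p L) ≤ S := hQpT.trans hTS
    obtain ⟨hnor, -⟩ := Cfsg.Agent.H87.model_normal_centric hL
      (normalizerSystem_isNormal hQS hN) (normalizerSystem_isCentric hQc hN)
    have hnor' : (imG ι Q).Normal := hnor
    have hQle : imG ι Q ≤ pCore p L := Cfsg.Agent.H86.le_pCore hnor' (imG_isPGroup ι hTp Q)
    have hQQp : Q ≤ preG ι (pCore p L) := fun x hx =>
      mem_preG.2 ⟨hQT hx, hQle (tot_mem_imG hx (hQT hx))⟩
    have hnle : ¬ preG ι (pCore p L) ≤ Q := by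
      intro hle
      apply hrad
      intro g hg
      obtain ⟨t, rfl⟩ := hOr hg
      have h1 : (t : Ω) ∈ preG ι (pCore p L) := mem_preG.2 ⟨t.2, by rw [tot_coe]; exact hg⟩
      have h2 := tot_mem_imG (ι := ι) (hle h1) t.2
      rwa [tot_coe] at h2
    have hsup : Q ⊔ preG ι (pCore p L) = preG ι (pCore p L) := sup_eq_right.2 hQQp
    have hUS : Q ⊔ preG ι (pCore p L) ≤ S := sup_le hQS hQpS
    -- `T` normalizes `Q⁺`
    have hTA₂ : normalizerIn S Q ≤ Subgroup.normalizer ((preG ι (pCore p L) : Subgroup Ω) : Set Ω) := by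
      have key : ∀ s ∈ normalizerIn S Q, ∀ x ∈ preG ι (pCore p L), s * x * s⁻¹ ∈ preG ι (pCore p L) := by
        intro s hs x hx
        obtain ⟨hxT, hxK⟩ := mem_preG.1 hx
        refine mem_preG.2 ⟨Subgroup.mul_mem _ (Subgroup.mul_mem _ hs hxT) (Subgroup.inv_mem _ hs), ?_⟩
        rw [tot_conj ι hs hxT]
        exact hOn.conj_mem _ hxK _
      intro s hs
      refine mem_normalizer_of_forall_conj_mem (key s hs) (fun x hx => ?_)
      have := key s⁻¹ (Subgroup.inv_mem _ hs) x hx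
      simpa using this
    have hTN : normalizerIn S Q ≤ normalizerIn S (Q ⊔ preG ι (pCore p L)) := by
      intro s hs
      rw [mem_normalizerIn_iff, hsup]
      exact ⟨hTS hs, hTA₂ hs⟩
    have hTA₁ : normalizerIn S Q ≤ Subgroup.normalizer (Q : Set Ω) := inf_le_right
    -- the fully normalized conjugate
    obtain ⟨χ, hχ, hB₁fn⟩ := exists_fn_map hS hF hUS
    have hUN : Q ⊔ preG ι (pCore p L) ≤ normalizerIn S (Q ⊔ preG ι (pCore p L)) :=
      le_normalizerIn hUS
    have hχU : Mor F (Q ⊔ preG ι (pCore p L)) χ := hχ.restrict hUN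
    have hB₁c : F.IsCentric (imgS (Q ⊔ preG ι (pCore p L)) χ) :=
      centric_imgS (centric_of_le hQc le_sup_left hUS) hχU
    have hB₁S : imgS (Q ⊔ preG ι (pCore p L)) χ ≤ S := hB₁c.1
    have hE₁ := Cfsg.Agent.H89.normalizerSystem_isNormalizerSystem F _ hB₁S
    have hE₁sat := normalizerSystem_saturated hS hF hB₁fn _ hE₁
    have hT₁S : normalizerIn S (imgS (Q ⊔ preG ι (pCore p L)) χ) ≤ S := inf_le_left
    have hfinT₁ : Finite ↥(normalizerIn S (imgS (Q ⊔ preG ι (pCore p L)) χ)) := finite_of_le hT₁S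
    obtain ⟨L₁, _, ι₁, hL₁, -, -⟩ := Cfsg.Agent.H90.exists_model (hS.to_le hT₁S) hE₁sat
      (normalizerSystem_isNormal hB₁S hE₁) (normalizerSystem_isCentric hB₁c hE₁)
    -- the induction hypothesis
    have hfinU : Finite ↥(Q ⊔ preG ι (pCore p L) : Subgroup Ω) := finite_of_le hUS
    have hcard1 : Nat.card Q < Nat.card ↥(Q ⊔ preG ι (pCore p L) : Subgroup Ω) := by
      apply card_lt_card_of_lt
      refine lt_of_le_of_ne le_sup_left (fun heq => hnle ?_)
      have h1 : preG ι (pCore p L) ≤ Q ⊔ preG ι (pCore p L) := le_sup_right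
      exact h1.trans heq.ge
    have hcard2 : Nat.card ↥(imgS (Q ⊔ preG ι (pCore p L)) χ) =
        Nat.card ↥(Q ⊔ preG ι (pCore p L) : Subgroup Ω) := hχU.card_imgS
    have hcard3 : Nat.card ↥(imgS (Q ⊔ preG ι (pCore p L)) χ) ≤ Nat.card S :=
      Subgroup.card_le_of_le hB₁S
    have hfree₁ : ¬ Involves H L₁ :=
      ih (Nat.card S - Nat.card ↥(imgS (Q ⊔ preG ι (pCore p L)) χ)) (by omega) _ rfl hB₁fn hB₁c
        _ hE₁ L₁ ι₁ hL₁
    -- the description of `N`
    have hE : ∀ (P : Subgroup Ω) (f : Ω → Ω), Mor N P f ↔ P ≤ normalizerIn S Q ∧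
        (∀ x ∈ P, f x ∈ normalizerIn S Q) ∧
        ∃ f', Mor F (P ⊔ (Q ⊔ preG ι (pCore p L))) f' ∧ (∀ x ∈ P, f' x = f x) ∧
          imgS Q f' = Q ∧ imgS (preG ι (pCore p L)) f' = preG ι (pCore p L) := by
      intro P f
      constructor
      · intro hf
        obtain ⟨f₁, hf₁, hf₁f, hf₁Q⟩ := (isNormal_iff.1 hQpn).2 P f hf
        obtain ⟨-, -, f₂, hf₂, hf₂f₁, hf₂Q⟩ := (mor_normalizerSystem_iff hN).1 hf₁
        have e : (P ⊔ preG ι (pCore p L)) ⊔ Q = P ⊔ (Q ⊔ preG ι (pCore p L)) := by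
          rw [sup_assoc, sup_comm (preG ι (pCore p L)) Q]
        have hf₂' : Mor F (P ⊔ (Q ⊔ preG ι (pCore p L))) f₂ := by
          rw [← e]
          exact hf₂
        refine ⟨hf.le, fun x hx => hf.mem hx, f₂, hf₂',
          fun x hx => (hf₂f₁ x (Subgroup.mem_sup_left hx)).trans (hf₁f x hx), hf₂Q, ?_⟩
        exact (Mor.imgS_congr (hf₂.restrict (le_sup_right.trans le_sup_left))
          (fun x hx => hf₂f₁ x (Subgroup.mem_sup_right hx))).trans hf₁Q
      · rintro ⟨hPT, hfT, f', hf', hf'f, hf'Q, -⟩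
        exact (mor_normalizerSystem_iff hN).2 ⟨hPT, hfT, f',
          hf'.restrict (sup_le_sup_left le_sup_left P), hf'f, hf'Q⟩
    -- the Sylow condition
    have hSyl : ∀ θ : Ω → Ω, Mor F (imgS (Q ⊔ preG ι (pCore p L)) χ) θ →
        imgS (imgS (Q ⊔ preG ι (pCore p L)) χ) θ = imgS (Q ⊔ preG ι (pCore p L)) χ →
        ∀ Y : Subgroup Ω, Y ≤ normalizerIn S (imgS (Q ⊔ preG ι (pCore p L)) χ) →
          Y ≤ Subgroup.normalizer ((imgS (imgS Q χ) θ : Subgroup Ω) : Set Ω) →
          Y ≤ Subgroup.normalizer ((imgS (imgS (preG ι (pCore p L)) χ) θ : Subgroup Ω) : Set Ω) →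
          Nat.card Y ≤ Nat.card ↥(normalizerIn S Q) := by
      intro θ hθ _ Y hYT₁ hYn₁ _
      have hχQ : Mor F Q χ := hχU.restrict le_sup_left
      have hmaps : ∀ x ∈ Q, χ x ∈ imgS (Q ⊔ preG ι (pCore p L)) χ := fun x hx =>
        hχU.mem_imgS_of_mem (Subgroup.mem_sup_left hx)
      have hconj : F.IsConj Q (imgS (imgS Q χ) θ) :=
        isConj_iff.2 ⟨θ ∘ χ, hχQ.comp hθ hmaps, hχQ.imgS_comp hθ hmaps⟩
      have h1 := hQfn.2 _ hconj
      have h2 : Y ≤ normalizerIn S (imgS (imgS Q χ) θ) := fun y hy =>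
        mem_normalizerIn_iff.2 ⟨(mem_normalizerIn_iff.1 (hYT₁ hy)).1, hYn₁ hy⟩
      have hfin : Finite ↥(normalizerIn S (imgS (imgS Q χ) θ)) := finite_of_le (S := S) inf_le_left
      exact (Subgroup.card_le_of_le h2).trans h1
    obtain ⟨M, ι', hM⟩ := submodel hS hQS hQpS hTN hTA₁ hTA₂ (hQT.trans hTA₂) hχ hB₁c hE₁ hL₁
      hE hSyl
    exact not_involves_of_models hTp hM hfree₁ hL

end Cfsg.Agent.H90.X.MS
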