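import Mathlib
import Cfsg.Prelude.Def_FusionSystem
import Cfsg.Prelude.Def_FusionReduction
import Cfsg.Agent.H86.FusBasic
import Cfsg.Agent.H86.FusAut
import Cfsg.Agent.H86.FusExt
import Cfsg.Agent.H86.FusSat
import Cfsg.Agent.H86.FusSylow
import Cfsg.Agent.H88.FactorSat
import Cfsg.Agent.H88.NormModel
import Cfsg.Agent.H87.ModelUnique
import Cfsg.Agent.H31.X.CharP2
import Cfsg.Agent.H52.ThS4

-- helper90: verbatim copy of `Cfsg.Agent.H29.ModelSub` under the namespace `Cfsg.Agent.H90.X.MS`, built on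
-- helper31's copy `Cfsg.Agent.H31.X.CharP2` (so that it can be loaded together with
-- `Cfsg.Agent.H29.ThompsonInt`, which declares the same name `Cfsg.Agent.H29.map_symm_map` as
-- `Cfsg.Agent.H29.Transport`).

set_option autoImplicit false
set_option maxHeartbeats 800000

/-!
Models of "iterated normalizer" subsystems as subgroups of a model: basic tools.
`real_mor`: the maps of a system realized by `ι` in terms of total functions.
`imG ι X`: the image in the realizing group of a subgroup `X`.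
-/

namespace Cfsg.Agent.H90.X.MS

open Cfsg Cfsg.FusionSystem Cfsg.Agent.H86 Cfsg.Agent.H88

section basic

variable {Ω : Type*} [Group Ω] {T : Subgroup Ω} {G : Type*} [Group G]

theorem tot_injOn {ι : T →* G} (hι : Function.Injective ι) {x y : Ω} (hx : x ∈ T) (hy : y ∈ T)
    (h : tot ι x = tot ι y) : x = y := by
  rw [tot_of_mem ι hx, tot_of_mem ι hy] at h
  exact congrArg Subtype.val (hι h)

/-- The maps of a system realized by `ι`, in terms of total functions. -/
theorem real_mor {E : FusionSystem T} {ι : T →* G} (hι : E.IsRealizedBy ι) {P : Subgroup Ω}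
    {f : Ω → Ω} :
    Mor E P f ↔ P ≤ T ∧ (∀ x ∈ P, f x ∈ T) ∧
      ∃ g : G, ∀ x ∈ P, tot ι (f x) = g * tot ι x * g⁻¹ := by
  constructor
  · rintro ⟨φ, hφ, hφf⟩
    have hP : P ≤ T := (E.le_of_mem hφ).1
    have hφT : ∀ x : P, φ x ∈ T := (E.le_of_mem hφ).2
    obtain ⟨g, hg⟩ := (hι.2 P hP φ hφT).1 hφ
    refine ⟨hP, fun x hx => ?_, g, fun x hx => ?_⟩
    · rw [← hφf ⟨x, hx⟩]
      exact hφT ⟨x, hx⟩
    · have h1 := hg ⟨x, hx⟩
      have h2 : f x = φ ⟨x, hx⟩ := (hφf ⟨x, hx⟩).symm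
      rw [h2, tot_of_mem ι (hφT ⟨x, hx⟩), tot_of_mem ι (hP hx)]
      exact h1
  · rintro ⟨hP, hfT, g, hg⟩
    have hmul : ∀ x y : P, f ((x * y : P) : Ω) = f x * f y := by
      intro x y
      apply tot_injOn hι.1 (hfT _ (x * y).2) (T.mul_mem (hfT _ x.2) (hfT _ y.2))
      rw [tot_mul ι (hfT _ x.2) (hfT _ y.2), hg _ (x * y).2, hg _ x.2, hg _ y.2, Subgroup.coe_mul,
        tot_mul ι (hP x.2) (hP y.2)]
      group
    refine ⟨MonoidHom.mk' (fun x : P => f x) hmul, ?_, fun x => rfl⟩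
    rw [hι.2 P hP _ (fun x => hfT _ x.2)]
    refine ⟨g, fun x => ?_⟩
    have h1 := hg x x.2
    rw [tot_of_mem ι (hfT _ x.2), tot_of_mem ι (hP x.2)] at h1
    exact h1

/-- The image in `G` of (the part in `T` of) a subgroup `X`. -/
def imG (ι : T →* G) (X : Subgroup Ω) : Subgroup G := (X.subgroupOf T).map ι

theorem mem_imG {ι : T →* G} {X : Subgroup Ω} {y : G} :
    y ∈ imG ι X ↔ ∃ x ∈ X, x ∈ T ∧ tot ι x = y := by
  constructor
  · rintro ⟨s, hs, rfl⟩
    exact ⟨s, Subgroup.mem_subgroupOf.1 hs, s.2, tot_coe ι s⟩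
  · rintro ⟨x, hx, hxT, rfl⟩
    exact ⟨⟨x, hxT⟩, Subgroup.mem_subgroupOf.2 hx, (tot_of_mem ι hxT).symm⟩

theorem tot_mem_imG {ι : T →* G} {X : Subgroup Ω} {x : Ω} (hx : x ∈ X) (hxT : x ∈ T) :
    tot ι x ∈ imG ι X := mem_imG.2 ⟨x, hx, hxT, rfl⟩

theorem imG_mono (ι : T →* G) {X Y : Subgroup Ω} (h : X ≤ Y) : imG ι X ≤ imG ι Y := by
  intro y hy
  obtain ⟨x, hx, hxT, rfl⟩ := mem_imG.1 hy
  exact tot_mem_imG (h hx) hxT

theorem mem_of_tot_mem_imG {ι : T →* G} (hι : Function.Injective ι) {X : Subgroup Ω} {x : Ω}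
    (hxT : x ∈ T) (h : tot ι x ∈ imG ι X) : x ∈ X := by
  obtain ⟨x', hx', hx'T, he⟩ := mem_imG.1 h
  rw [← tot_injOn hι hx'T hxT he]
  exact hx'

theorem imG_isPGroup {p : ℕ} (ι : T →* G) (hT : IsPGroup p T) (X : Subgroup Ω) :
    IsPGroup p (imG ι X) :=
  (hT.to_subgroup (X.subgroupOf T)).map ι

theorem card_imG {ι : T →* G} (hι : Function.Injective ι) {X : Subgroup Ω} (hX : X ≤ T) :
    Nat.card (imG ι X) = Nat.card X := by
  unfold imG
  rw [Subgroup.card_map_of_injective hι]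
  exact Nat.card_congr (Subgroup.subgroupOfEquivOfLe hX).toEquiv

theorem finite_imG [Finite T] (ι : T →* G) (X : Subgroup Ω) : Finite (imG ι X) := by
  unfold imG
  exact Finite.of_surjective
    (fun s : X.subgroupOf T => (⟨ι s, Subgroup.mem_map_of_mem ι s.2⟩ : (X.subgroupOf T).map ι))
    (by rintro ⟨_, s, hs, rfl⟩; exact ⟨⟨s, hs⟩, rfl⟩)

/-- An element conjugating a finite subgroup into itself normalizes it. -/
theorem mem_normalizer_of_conj_le {I : Subgroup G} [Finite I] {g : G}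
    (h : ∀ y ∈ I, g * y * g⁻¹ ∈ I) : g ∈ Subgroup.normalizer (I : Set G) := by
  have hinj : Function.Injective (fun y : I => (⟨g * y * g⁻¹, h y y.2⟩ : I)) := by
    intro a b hab
    have := congrArg Subtype.val hab
    simp only [mul_left_inj, mul_right_inj] at this
    exact Subtype.ext this
  have hsurj := Finite.surjective_of_injective hinj
  refine mem_normalizer_of_forall_conj_mem h (fun y hy => ?_)
  obtain ⟨a, ha⟩ := hsurj ⟨y, hy⟩
  have h1 : g * (a : G) * g⁻¹ = y := congrArg Subtype.val ha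
  have h2 : g⁻¹ * y * g = a := by rw [← h1]; group
  rw [h2]
  exact a.2

end basic

end Cfsg.Agent.H90.X.MS
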