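import Cfsg.Agent.H90.X.ModelSub

-- helper90: verbatim copy of `Cfsg.Agent.H29.ModelSub2` under the namespace `Cfsg.Agent.H90.X.MS`, built on
-- helper31's copy `Cfsg.Agent.H31.X.CharP2` (so that it can be loaded together with
-- `Cfsg.Agent.H29.ThompsonInt`, which declares the same name `Cfsg.Agent.H29.map_symm_map` as
-- `Cfsg.Agent.H29.Transport`).

set_option autoImplicit false
set_option maxHeartbeats 1600000

/-!
The joint normalizer of two `p`-subgroups in a group of characteristic `p` has characteristic `p`;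
the local data of the submodel construction.
-/

namespace Cfsg.Agent.H90.X.MS

open Cfsg Cfsg.FusionSystem Cfsg.Agent.H86 Cfsg.Agent.H88

theorem charP_inf_normalizer {G : Type*} [Group G] [Finite G] {p : ℕ} [Fact p.Prime]
    (hG : Cfsg.Agent.H31.X.H54.CharP p G) {J₁ J₂ : Subgroup G} (h₁ : IsPGroup p J₁) (h₂ : IsPGroup p J₂)
    (h₁₂ : J₁ ≤ Subgroup.normalizer (J₂ : Set G)) :
    Cfsg.Agent.H31.X.H54.CharP p
      ↥(Subgroup.normalizer (J₁ : Set G) ⊓ Subgroup.normalizer (J₂ : Set G)) := by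
  have hN₂ : Cfsg.Agent.H31.X.H54.CharP p ↥(Subgroup.normalizer (J₂ : Set G)) :=
    Cfsg.Agent.H31.X.H54.charP_normalizer_of_charP hG J₂ h₂
  have hU : IsPGroup p (J₁.subgroupOf (Subgroup.normalizer (J₂ : Set G))) := h₁.comap_subtype
  have hNU := Cfsg.Agent.H31.X.H54.charP_normalizer_of_charP hN₂ _ hU
  have heq : (Subgroup.normalizer
      ((J₁.subgroupOf (Subgroup.normalizer (J₂ : Set G)) :
        Subgroup ↥(Subgroup.normalizer (J₂ : Set G))) : Set ↥(Subgroup.normalizer (J₂ : Set G)))).map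
        (Subgroup.normalizer (J₂ : Set G)).subtype =
      Subgroup.normalizer (J₁ : Set G) ⊓ Subgroup.normalizer (J₂ : Set G) := by
    rw [← Subgroup.subgroupOf_normalizer_eq h₁₂, Subgroup.subgroupOf, Subgroup.map_comap_eq,
      Subgroup.range_subtype, inf_comm]
  exact Cfsg.Agent.H31.X.H54.charP_of_equiv
    ((Subgroup.equivMapOfInjective _ _ (Subgroup.subtype_injective _)).trans
      (MulEquiv.subgroupCongr heq)) hNU

end Cfsg.Agent.H90.X.MS

namespace Cfsg.Agent.H90.X.MS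

open Cfsg Cfsg.FusionSystem Cfsg.Agent.H86 Cfsg.Agent.H88

universe u

variable {Ω : Type u} [Group Ω] {S : Subgroup Ω}

/-- A map of the normalizer system is a map of the system. -/
theorem mor_of_mor_normalizerSystem {F : FusionSystem S} {Q : Subgroup Ω}
    {E : FusionSystem (normalizerIn S Q)} (hE : F.IsNormalizerSystem Q E) {P : Subgroup Ω}
    {f : Ω → Ω} (hf : Mor E P f) : Mor F P f := by
  obtain ⟨-, -, f', hf', hf'f, -⟩ := (mor_normalizerSystem_iff hE).1 hf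
  exact (hf'.restrict le_sup_left).congr hf'f

/-- The image of a normalizing element normalizes the image. -/
theorem tot_mem_normalizer_imG [Finite S] {F : FusionSystem S} {N₀ T₁ : Subgroup Ω}
    {φ : Ω → Ω} (hφ : Mor F N₀ φ) (hφT₁ : ∀ x ∈ N₀, φ x ∈ T₁) (hT₁S : T₁ ≤ S)
    {L₁ : Type*} [Group L₁] (ι₁ : ↥T₁ →* L₁) {A : Subgroup Ω} (hA : A ≤ N₀) {x : Ω}
    (hx : x ∈ N₀) (hxA : x ∈ Subgroup.normalizer (A : Set Ω)) :
    tot ι₁ (φ x) ∈ Subgroup.normalizer ((imG ι₁ (imgS A φ) : Subgroup L₁) : Set L₁) := by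
  have hφA : Mor F A φ := hφ.restrict hA
  have hfT₁ : Finite ↥T₁ := finite_of_le hT₁S
  have hfin : Finite (imG ι₁ (imgS A φ)) := finite_imG ι₁ _
  apply mem_normalizer_of_conj_le
  intro y hy
  obtain ⟨z, hz, hzT, rfl⟩ := mem_imG.1 hy
  obtain ⟨a, ha, rfl⟩ := hφA.mem_imgS.1 hz
  have h1 : tot ι₁ (φ x) * tot ι₁ (φ a) * (tot ι₁ (φ x))⁻¹ = tot ι₁ (φ (x * a * x⁻¹)) := by
    rw [hφ.map_mul (N₀.mul_mem hx (hA ha)) (N₀.inv_mem hx), hφ.map_mul hx (hA ha), hφ.map_inv hx,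
      tot_conj ι₁ (hφT₁ x hx) (hφT₁ a (hA ha))]
  rw [h1]
  have h2 : x * a * x⁻¹ ∈ A := conj_mem_of_mem_normalizer hxA ha
  exact tot_mem_imG (hφA.mem_imgS_of_mem h2) (hφT₁ _ (hA h2))

end Cfsg.Agent.H90.X.MS
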