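import Cfsg.Agent.H90.X.ModelSub2

-- helper90: verbatim copy of `Cfsg.Agent.H29.ModelSub3` under the namespace `Cfsg.Agent.H90.X.MS`, built on
-- helper31's copy `Cfsg.Agent.H31.X.CharP2` (so that it can be loaded together with
-- `Cfsg.Agent.H29.ThompsonInt`, which declares the same name `Cfsg.Agent.H29.map_symm_map` as
-- `Cfsg.Agent.H29.Transport`).

set_option autoImplicit false
set_option maxHeartbeats 3200000

/-!
The submodel theorem: the subsystem of the maps of `F` (over `T ≤ N_S(A₁A₂)`) that extend to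
`P(A₁A₂)` normalizing `A₁` and `A₂` has as model the joint normalizer of the images of `A₁`, `A₂`
in a model of the normalizer system of a fully normalized conjugate of `A₁A₂`.
-/

namespace Cfsg.Agent.H90.X.MS

open Cfsg Cfsg.FusionSystem Cfsg.Agent.H86 Cfsg.Agent.H88

universe u

variable {Ω : Type u} [Group Ω] {S : Subgroup Ω}

theorem submodel [Finite S] {p : ℕ} [Fact p.Prime] (hS : IsPGroup p S) {F : FusionSystem S}
    {A₁ A₂ T : Subgroup Ω} (hA₁S : A₁ ≤ S) (hA₂S : A₂ ≤ S)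
    (hTN : T ≤ normalizerIn S (A₁ ⊔ A₂))
    (hTA₁ : T ≤ Subgroup.normalizer (A₁ : Set Ω)) (hTA₂ : T ≤ Subgroup.normalizer (A₂ : Set Ω))
    (hA₁₂ : A₁ ≤ Subgroup.normalizer (A₂ : Set Ω))
    {φ : Ω → Ω} (hφ : Mor F (normalizerIn S (A₁ ⊔ A₂)) φ)
    (hB₁c : F.IsCentric (imgS (A₁ ⊔ A₂) φ))
    {E₁ : FusionSystem (normalizerIn S (imgS (A₁ ⊔ A₂) φ))}
    (hE₁ : F.IsNormalizerSystem (imgS (A₁ ⊔ A₂) φ) E₁)
    {L₁ : Type u} [Group L₁] {ι₁ : ↥(normalizerIn S (imgS (A₁ ⊔ A₂) φ)) →* L₁}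
    (hL₁ : E₁.IsModel p L₁ ι₁)
    {E : FusionSystem T}
    (hE : ∀ (P : Subgroup Ω) (f : Ω → Ω), Mor E P f ↔ P ≤ T ∧ (∀ x ∈ P, f x ∈ T) ∧
      ∃ f', Mor F (P ⊔ (A₁ ⊔ A₂)) f' ∧ (∀ x ∈ P, f' x = f x) ∧ imgS A₁ f' = A₁ ∧ imgS A₂ f' = A₂)
    (hSyl : ∀ θ : Ω → Ω, Mor F (imgS (A₁ ⊔ A₂) φ) θ →
      imgS (imgS (A₁ ⊔ A₂) φ) θ = imgS (A₁ ⊔ A₂) φ →
      ∀ Y : Subgroup Ω, Y ≤ normalizerIn S (imgS (A₁ ⊔ A₂) φ) →
        Y ≤ Subgroup.normalizer ((imgS (imgS A₁ φ) θ : Subgroup Ω) : Set Ω) →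
        Y ≤ Subgroup.normalizer ((imgS (imgS A₂ φ) θ : Subgroup Ω) : Set Ω) →
        Nat.card Y ≤ Nat.card T) :
    ∃ (M : Subgroup L₁) (ι' : ↥T →* ↥M), E.IsModel p ↥M ι' := by
  classical
  obtain ⟨hfinL, hreal, ⟨Tsyl, hTsyl⟩, hcen⟩ := id hL₁
  have hι₁inj : Function.Injective ι₁ := hreal.1
  -- abbreviations
  have hB₀S : A₁ ⊔ A₂ ≤ S := sup_le hA₁S hA₂S
  have hB₀N₀ : A₁ ⊔ A₂ ≤ normalizerIn S (A₁ ⊔ A₂) := le_normalizerIn hB₀S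
  have hN₀S : normalizerIn S (A₁ ⊔ A₂) ≤ S := inf_le_left
  have hT₁S : normalizerIn S (imgS (A₁ ⊔ A₂) φ) ≤ S := inf_le_left
  have hA₁N₀ : A₁ ≤ normalizerIn S (A₁ ⊔ A₂) := le_sup_left.trans hB₀N₀
  have hA₂N₀ : A₂ ≤ normalizerIn S (A₁ ⊔ A₂) := le_sup_right.trans hB₀N₀
  have hφB₀ : Mor F (A₁ ⊔ A₂) φ := hφ.restrict hB₀N₀
  have hφT₁ : ∀ x ∈ normalizerIn S (A₁ ⊔ A₂), φ x ∈ normalizerIn S (imgS (A₁ ⊔ A₂) φ) := by
    intro x hx
    rw [mem_normalizerIn_iff]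
    exact ⟨hφ.mem hx, hφ.mem_normalizer_imgS hB₀N₀ (fun g hg => (mem_normalizerIn_iff.1 hg).2) hx⟩
  have hB₁T₁ : imgS (A₁ ⊔ A₂) φ ≤ normalizerIn S (imgS (A₁ ⊔ A₂) φ) := le_normalizerIn hB₁c.1
  have hfinS : ∀ X : Subgroup Ω, X ≤ S → Finite X := fun X hX => finite_of_le hX
  have hfinT₁ : Finite ↥(normalizerIn S (imgS (A₁ ⊔ A₂) φ)) := hfinS _ hT₁S
  have hT₁p : IsPGroup p ↥(normalizerIn S (imgS (A₁ ⊔ A₂) φ)) := hS.to_le hT₁S
  have hTS : T ≤ S := hTN.trans hN₀S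
  have hfinT : Finite ↥T := hfinS _ hTS
  -- `B₁` is normal in the model
  have hB₁nor : (imG ι₁ (imgS (A₁ ⊔ A₂) φ)).Normal :=
    (Cfsg.Agent.H87.model_normal_centric hL₁ (normalizerSystem_isNormal hB₁c.1 hE₁)
      (normalizerSystem_isCentric hB₁c hE₁)).1
  -- the subgroups
  have hJ₁fin : Finite (imG ι₁ (imgS A₁ φ)) := finite_imG ι₁ _
  have hJ₂fin : Finite (imG ι₁ (imgS A₂ φ)) := finite_imG ι₁ _
  have hK : ∀ x ∈ T, tot ι₁ (φ x) ∈ Subgroup.normalizer ((imG ι₁ (imgS A₁ φ) : Subgroup L₁) : Set L₁) ⊓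
      Subgroup.normalizer ((imG ι₁ (imgS A₂ φ) : Subgroup L₁) : Set L₁) := fun x hx =>
    ⟨tot_mem_normalizer_imG hφ hφT₁ hT₁S ι₁ hA₁N₀ (hTN hx) (hTA₁ hx),
      tot_mem_normalizer_imG hφ hφT₁ hT₁S ι₁ hA₂N₀ (hTN hx) (hTA₂ hx)⟩
  let M : Subgroup L₁ := Subgroup.normalizer ((imG ι₁ (imgS A₁ φ) : Subgroup L₁) : Set L₁) ⊓
      Subgroup.normalizer ((imG ι₁ (imgS A₂ φ) : Subgroup L₁) : Set L₁)
  let ι' : ↥T →* ↥M := MonoidHom.mk' (fun x => ⟨tot ι₁ (φ x), hK x x.2⟩) (by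
    intro x y
    apply Subtype.ext
    show tot ι₁ (φ ((x * y : T) : Ω)) = tot ι₁ (φ x) * tot ι₁ (φ y)
    rw [Subgroup.coe_mul, hφ.map_mul (hTN x.2) (hTN y.2),
      tot_mul ι₁ (hφT₁ _ (hTN x.2)) (hφT₁ _ (hTN y.2))])
  have hι'coe : ∀ x : T, ((ι' x : ↥M) : L₁) = tot ι₁ (φ x) := fun x => rfl
  have hι'inj : Function.Injective ι' := by
    intro x y hxy
    have h1 : tot ι₁ (φ x) = tot ι₁ (φ y) := congrArg Subtype.val hxy
    have h2 := tot_injOn hι₁inj (hφT₁ _ (hTN x.2)) (hφT₁ _ (hTN y.2)) h1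
    exact Subtype.ext (hφ.injOn (hTN x.2) (hTN y.2) h2)
  -- realization, in terms of total functions
  have RM : ∀ (P : Subgroup Ω) (f : Ω → Ω), P ≤ T → (∀ x ∈ P, f x ∈ T) →
      (Mor E P f ↔ ∃ g ∈ M, ∀ x ∈ P, tot ι₁ (φ (f x)) = g * tot ι₁ (φ x) * g⁻¹) := by
    intro P f hP hfT
    have hPpN₀ : P ⊔ (A₁ ⊔ A₂) ≤ normalizerIn S (A₁ ⊔ A₂) := sup_le (hP.trans hTN) hB₀N₀
    have hφPp : Mor F (P ⊔ (A₁ ⊔ A₂)) φ := hφ.restrict hPpN₀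
    have hB₁P' : imgS (A₁ ⊔ A₂) φ ≤ imgS (P ⊔ (A₁ ⊔ A₂)) φ := hφPp.imgS_mono le_sup_right
    have hP'T₁ : imgS (P ⊔ (A₁ ⊔ A₂)) φ ≤ normalizerIn S (imgS (A₁ ⊔ A₂) φ) := by
      intro y hy
      obtain ⟨x, hx, rfl⟩ := hφPp.mem_imgS.1 hy
      exact hφT₁ x (hPpN₀ hx)
    constructor
    · intro hf
      obtain ⟨-, -, f', hf', hf'f, hf'A₁, hf'A₂⟩ := (hE P f).1 hf
      have himgB : imgS (A₁ ⊔ A₂) f' = A₁ ⊔ A₂ := by
        rw [Mor.imgS_sup (hf'.restrict le_sup_right), hf'A₁, hf'A₂]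
      have hf'N₀ : ∀ x ∈ P ⊔ (A₁ ⊔ A₂), f' x ∈ normalizerIn S (A₁ ⊔ A₂) :=
        mor_sup_maps hf' (fun x hx => by rw [hf'f x hx]; exact hTN (hfT x hx))
          (fun x hx => hB₀N₀ (by
            have := (hf'.restrict le_sup_right).mem_imgS_of_mem hx
            rwa [himgB] at this))
      have hθ : Mor F (imgS (P ⊔ (A₁ ⊔ A₂)) φ) (φ ∘ (f' ∘ invOn (P ⊔ (A₁ ⊔ A₂)) φ)) :=
        (hφPp.inv.comp hf' (fun y hy => hφPp.invOn_mem hy)).comp hφ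
          (fun y hy => hf'N₀ _ (hφPp.invOn_mem hy))
      have hθφ : ∀ x ∈ P ⊔ (A₁ ⊔ A₂),
          (φ ∘ (f' ∘ invOn (P ⊔ (A₁ ⊔ A₂)) φ)) (φ x) = φ (f' x) := by
        intro x hx
        show φ (f' (invOn (P ⊔ (A₁ ⊔ A₂)) φ (φ x))) = φ (f' x)
        rw [invOn_apply hφPp.injOn hx]
      have hfinB₁ : Finite (imgS (A₁ ⊔ A₂) φ) := hfinS _ hB₁c.1
      have hθB₁ : imgS (imgS (A₁ ⊔ A₂) φ) (φ ∘ (f' ∘ invOn (P ⊔ (A₁ ⊔ A₂)) φ)) =
          imgS (A₁ ⊔ A₂) φ := by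
        refine imgS_eq_of_maps (hθ.restrict hB₁P') (fun y hy => ?_)
        obtain ⟨b, hb, rfl⟩ := hφB₀.mem_imgS.1 hy
        rw [hθφ b (Subgroup.mem_sup_right hb)]
        refine hφB₀.mem_imgS_of_mem ?_
        have := (hf'.restrict le_sup_right).mem_imgS_of_mem hb
        rwa [himgB] at this
      have hθE₁ : Mor E₁ (imgS (P ⊔ (A₁ ⊔ A₂)) φ) (φ ∘ (f' ∘ invOn (P ⊔ (A₁ ⊔ A₂)) φ)) := by
        rw [mor_normalizerSystem_iff hE₁]
        refine ⟨hP'T₁, fun y hy => ?_, _, ?_, fun _ _ => rfl, hθB₁⟩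
        · exact hφT₁ _ (hf'N₀ _ (hφPp.invOn_mem hy))
        · rw [sup_eq_left.2 hB₁P']
          exact hθ
      obtain ⟨-, -, g, hg⟩ := (real_mor hreal).1 hθE₁
      have hgA : ∀ (A : Subgroup Ω), A ≤ A₁ ⊔ A₂ → imgS A f' = A →
          g ∈ Subgroup.normalizer ((imG ι₁ (imgS A φ) : Subgroup L₁) : Set L₁) := by
        intro A hA hf'A
        have hAN₀ : A ≤ normalizerIn S (A₁ ⊔ A₂) := hA.trans hB₀N₀
        have hφA : Mor F A φ := hφ.restrict hAN₀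
        have hfinJ : Finite (imG ι₁ (imgS A φ)) := finite_imG ι₁ _
        apply mem_normalizer_of_conj_le
        intro y hy
        obtain ⟨z, hz, hzT, rfl⟩ := mem_imG.1 hy
        obtain ⟨a, ha, rfl⟩ := hφA.mem_imgS.1 hz
        have haPp : a ∈ P ⊔ (A₁ ⊔ A₂) := Subgroup.mem_sup_right (hA ha)
        rw [← hg _ (hφPp.mem_imgS_of_mem haPp), hθφ a haPp]
        have hf'a : f' a ∈ A := by
          have := (hf'.restrict (hA.trans le_sup_right)).mem_imgS_of_mem ha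
          rwa [hf'A] at this
        exact tot_mem_imG (hφA.mem_imgS_of_mem hf'a) (hφT₁ _ (hAN₀ hf'a))
      refine ⟨g, ⟨hgA A₁ le_sup_left hf'A₁, hgA A₂ le_sup_right hf'A₂⟩, fun x hx => ?_⟩
      have hxPp : x ∈ P ⊔ (A₁ ⊔ A₂) := Subgroup.mem_sup_left hx
      rw [← hf'f x hx, ← hθφ x hxPp]
      exact hg _ (hφPp.mem_imgS_of_mem hxPp)
    · rintro ⟨g, hgM, hg⟩
      have hZT₁ : imgS (normalizerIn S (A₁ ⊔ A₂)) φ ≤ normalizerIn S (imgS (A₁ ⊔ A₂) φ) := by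
        intro y hy
        obtain ⟨x, hx, rfl⟩ := hφ.mem_imgS.1 hy
        exact hφT₁ x hx
      have hex : ∀ y ∈ imgS (P ⊔ (A₁ ⊔ A₂)) φ,
          ∃ z ∈ imgS (normalizerIn S (A₁ ⊔ A₂)) φ, tot ι₁ z = g * tot ι₁ y * g⁻¹ := by
        let W : Subgroup ↥(normalizerIn S (imgS (A₁ ⊔ A₂) φ)) :=
          (imG ι₁ (imgS (normalizerIn S (A₁ ⊔ A₂)) φ)).comap
            ((MulAut.conj g).toMonoidHom.comp ι₁)
        have hW : ∀ (y : Ω) (hy : y ∈ normalizerIn S (imgS (A₁ ⊔ A₂) φ)),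
            (⟨y, hy⟩ : ↥(normalizerIn S (imgS (A₁ ⊔ A₂) φ))) ∈ W ↔
              g * tot ι₁ y * g⁻¹ ∈ imG ι₁ (imgS (normalizerIn S (A₁ ⊔ A₂)) φ) := by
          intro y hy
          rw [tot_of_mem ι₁ hy]
          rfl
        have hle : imgS (P ⊔ (A₁ ⊔ A₂)) φ ≤
            W.map (normalizerIn S (imgS (A₁ ⊔ A₂) φ)).subtype := by
          rw [Mor.imgS_sup hφPp]
          refine sup_le ?_ ?_
          · intro y hy
            obtain ⟨x, hx, rfl⟩ := (hφ.restrict (hP.trans hTN)).mem_imgS.1 hy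
            have hyT₁ := hφT₁ x (hTN (hP hx))
            refine ⟨⟨φ x, hyT₁⟩, (hW _ hyT₁).2 ?_, rfl⟩
            rw [← hg x hx]
            exact tot_mem_imG (hφ.mem_imgS_of_mem (hTN (hfT x hx))) (hφT₁ _ (hTN (hfT x hx)))
          · intro y hy
            have hyT₁ := hB₁T₁ hy
            refine ⟨⟨y, hyT₁⟩, (hW _ hyT₁).2 ?_, rfl⟩
            have h1 : g * tot ι₁ y * g⁻¹ ∈ imG ι₁ (imgS (A₁ ⊔ A₂) φ) :=
              hB₁nor.conj_mem _ (tot_mem_imG hy hyT₁) g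
            exact imG_mono ι₁ (hφ.imgS_mono hB₀N₀) h1
        intro y hy
        obtain ⟨w, hw, rfl⟩ := hle hy
        have h1 := (hW w.1 w.2).1 hw
        obtain ⟨z, hz, hzT, he⟩ := mem_imG.1 h1
        exact ⟨z, hz, he⟩
      choose! θ hθZ hθg using hex
      have hθE₁ : Mor E₁ (imgS (P ⊔ (A₁ ⊔ A₂)) φ) θ :=
        (real_mor hreal).2 ⟨hP'T₁, fun y hy => hZT₁ (hθZ y hy), g, fun y hy => hθg y hy⟩
      have hθF : Mor F (imgS (P ⊔ (A₁ ⊔ A₂)) φ) θ := mor_of_mor_normalizerSystem hE₁ hθE₁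
      have hf' : Mor F (P ⊔ (A₁ ⊔ A₂)) (invOn (normalizerIn S (A₁ ⊔ A₂)) φ ∘ (θ ∘ φ)) :=
        (hφPp.comp hθF (fun x hx => hφPp.mem_imgS_of_mem hx)).comp hφ.inv
          (fun x hx => hθZ _ (hφPp.mem_imgS_of_mem hx))
      have hAimg : ∀ (A : Subgroup Ω), A ≤ A₁ ⊔ A₂ →
          g ∈ Subgroup.normalizer ((imG ι₁ (imgS A φ) : Subgroup L₁) : Set L₁) →
          imgS A (invOn (normalizerIn S (A₁ ⊔ A₂)) φ ∘ (θ ∘ φ)) = A := by
        intro A hA hgA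
        have hAN₀ : A ≤ normalizerIn S (A₁ ⊔ A₂) := hA.trans hB₀N₀
        have hφA : Mor F A φ := hφ.restrict hAN₀
        have hfinA : Finite A := hfinS _ (hA.trans hB₀S)
        refine imgS_eq_of_maps (hf'.restrict (hA.trans le_sup_right)) (fun a ha => ?_)
        have haPp : a ∈ P ⊔ (A₁ ⊔ A₂) := Subgroup.mem_sup_right (hA ha)
        have hφaP' := hφPp.mem_imgS_of_mem haPp
        have h1 : tot ι₁ (θ (φ a)) ∈ imG ι₁ (imgS A φ) := by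
          rw [hθg _ hφaP']
          exact conj_mem_of_mem_normalizer hgA
            (tot_mem_imG (hφA.mem_imgS_of_mem ha) (hφT₁ _ (hAN₀ ha)))
        have h2 : θ (φ a) ∈ imgS A φ := mem_of_tot_mem_imG hι₁inj (hZT₁ (hθZ _ hφaP')) h1
        obtain ⟨a', ha', ha'e⟩ := hφA.mem_imgS.1 h2
        show invOn (normalizerIn S (A₁ ⊔ A₂)) φ (θ (φ a)) ∈ A
        rw [← ha'e, invOn_apply hφ.injOn (hAN₀ ha')]
        exact ha'
      rw [hE P f]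
      refine ⟨hP, hfT, _, hf', fun x hx => ?_, hAimg A₁ le_sup_left hgM.1,
        hAimg A₂ le_sup_right hgM.2⟩
      show invOn (normalizerIn S (A₁ ⊔ A₂)) φ (θ (φ x)) = f x
      have hxPp : x ∈ P ⊔ (A₁ ⊔ A₂) := Subgroup.mem_sup_left hx
      have h1 : θ (φ x) = φ (f x) := by
        apply tot_injOn hι₁inj (hZT₁ (hθZ _ (hφPp.mem_imgS_of_mem hxPp)))
          (hφT₁ _ (hTN (hfT x hx)))
        rw [hθg _ (hφPp.mem_imgS_of_mem hxPp), hg x hx]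
      rw [h1, invOn_apply hφ.injOn (hTN (hfT x hx))]
  have hJ₁p : IsPGroup p (imG ι₁ (imgS A₁ φ)) := imG_isPGroup ι₁ hT₁p _
  have hJ₂p : IsPGroup p (imG ι₁ (imgS A₂ φ)) := imG_isPGroup ι₁ hT₁p _
  have hJ₁₂ : imG ι₁ (imgS A₁ φ) ≤
      Subgroup.normalizer ((imG ι₁ (imgS A₂ φ) : Subgroup L₁) : Set L₁) := by
    intro y hy
    obtain ⟨z, hz, hzT, rfl⟩ := mem_imG.1 hy
    obtain ⟨a, ha, rfl⟩ := (hφ.restrict hA₁N₀).mem_imgS.1 hz
    exact tot_mem_normalizer_imG hφ hφT₁ hT₁S ι₁ hA₂N₀ (hA₁N₀ ha) (hA₁₂ ha)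
  refine ⟨M, ι', ?_, ⟨hι'inj, ?_⟩, ?_, ?_⟩
  · exact inferInstance
  · intro P hP ψ hψ
    have key := RM P (extFun P ψ) hP (fun x hx => by
      rw [extFun_of_mem P ψ hx]
      exact hψ ⟨x, hx⟩)
    constructor
    · intro hψE
      obtain ⟨g, hgM, hg⟩ := key.1 (mor_extFun hψE)
      refine ⟨⟨g, hgM⟩, fun x => Subtype.ext ?_⟩
      have h1 := hg x x.2
      rw [extFun_apply] at h1
      exact h1
    · rintro ⟨g, hg⟩
      have hm : Mor E P (extFun P ψ) := by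
        refine key.2 ⟨g.1, g.2, fun x hx => ?_⟩
        have h1 := congrArg Subtype.val (hg ⟨x, hx⟩)
        rw [extFun_of_mem P ψ hx]
        exact h1
      obtain ⟨ψ', hψ', hψ'e⟩ := hm
      have h2 : ψ' = ψ := by
        ext x
        rw [hψ'e, extFun_apply]
      rwa [h2] at hψ'
  · -- the Sylow condition
    have hTp : IsPGroup p ↥T := hS.to_le hTS
    have hrp : IsPGroup p ι'.range := by
      rw [MonoidHom.range_eq_map]
      exact (hTp.to_subgroup ⊤).map ι'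
    obtain ⟨PM, hPM⟩ := hrp.exists_le_sylow
    refine ⟨PM, (Subgroup.eq_of_le_of_card_ge hPM ?_).symm⟩
    have hcr : Nat.card ι'.range = Nat.card ↥T :=
      (Nat.card_congr (MonoidHom.ofInjective hι'inj).toEquiv).symm
    rw [hcr]
    -- conjugate the Sylow subgroup into the image of `T₁`
    have hPLp : IsPGroup p ((PM : Subgroup ↥M).map M.subtype) := PM.isPGroup'.map _
    obtain ⟨P'', hP''⟩ := hPLp.exists_le_sylow
    obtain ⟨x, hx⟩ := MulAction.exists_smul_eq L₁ P'' Tsyl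
    have hconj : ∀ y ∈ (PM : Subgroup ↥M), x * (y : L₁) * x⁻¹ ∈ ι₁.range := by
      intro y hy
      rw [← hTsyl, ← hx]
      exact Subgroup.smul_mem_pointwise_smul _ (MulAut.conj x) _
        (hP'' (Subgroup.mem_map_of_mem _ hy))
    -- the automorphism of `B₁` induced by `x`
    have hexθ : ∀ b ∈ imgS (A₁ ⊔ A₂) φ,
        ∃ z ∈ imgS (A₁ ⊔ A₂) φ, tot ι₁ z = x * tot ι₁ b * x⁻¹ := by
      intro b hb
      have h1 : x * tot ι₁ b * x⁻¹ ∈ imG ι₁ (imgS (A₁ ⊔ A₂) φ) :=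
        hB₁nor.conj_mem _ (tot_mem_imG hb (hB₁T₁ hb)) x
      obtain ⟨z, hz, -, he⟩ := mem_imG.1 h1
      exact ⟨z, hz, he⟩
    choose! θ hθB hθx using hexθ
    have hθE₁ : Mor E₁ (imgS (A₁ ⊔ A₂) φ) θ :=
      (real_mor hreal).2 ⟨hB₁T₁, fun y hy => hB₁T₁ (hθB y hy), x, fun y hy => hθx y hy⟩
    have hθF : Mor F (imgS (A₁ ⊔ A₂) φ) θ := mor_of_mor_normalizerSystem hE₁ hθE₁
    have hfinB₁ : Finite (imgS (A₁ ⊔ A₂) φ) := hfinS _ hB₁c.1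
    have hθimg : imgS (imgS (A₁ ⊔ A₂) φ) θ = imgS (A₁ ⊔ A₂) φ := imgS_eq_of_maps hθF hθB
    -- the subgroup `Y`
    let Y : Subgroup Ω := (((PM : Subgroup ↥M).map M.subtype).map
      (MulAut.conj x).toMonoidHom).comap ι₁ |>.map (normalizerIn S (imgS (A₁ ⊔ A₂) φ)).subtype
    have hYT₁ : Y ≤ normalizerIn S (imgS (A₁ ⊔ A₂) φ) := by
      rintro _ ⟨w, -, rfl⟩
      exact w.2
    have hYmem : ∀ z ∈ Y, ∃ y ∈ (PM : Subgroup ↥M), tot ι₁ z = x * (y : L₁) * x⁻¹ := by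
      rintro _ ⟨w, hw, rfl⟩
      obtain ⟨_, ⟨y, hy, rfl⟩, he⟩ := hw
      refine ⟨y, hy, ?_⟩
      show tot ι₁ (w : Ω) = _
      rw [tot_coe]
      exact he.symm
    have hfinY : Finite Y := hfinS _ (hYT₁.trans hT₁S)
    have hcard : Nat.card (PM : Subgroup ↥M) ≤ Nat.card Y := by
      have hex : ∀ y : (PM : Subgroup ↥M), ∃ z : Y, tot ι₁ (z : Ω) = x * ((y : ↥M) : L₁) * x⁻¹ := by
        intro y
        obtain ⟨w, hw⟩ := hconj y y.2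
        refine ⟨⟨w, ⟨w, ⟨((y : ↥M) : L₁), ⟨(y : ↥M), y.2, rfl⟩, hw.symm⟩, rfl⟩⟩, ?_⟩
        show tot ι₁ (w : Ω) = _
        rw [tot_coe]
        exact hw
      choose c hc using hex
      refine Nat.card_le_card_of_injective c ?_
      intro y y' hyy'
      have h1 : x * ((y : ↥M) : L₁) * x⁻¹ = x * ((y' : ↥M) : L₁) * x⁻¹ := by
        rw [← hc y, ← hc y', hyy']
      have h2 : ((y : ↥M) : L₁) = ((y' : ↥M) : L₁) := by
        simpa using h1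
      exact Subtype.ext (Subtype.ext h2)
    have hYn : ∀ (A : Subgroup Ω), A ≤ A₁ ⊔ A₂ →
        M ≤ Subgroup.normalizer ((imG ι₁ (imgS A φ) : Subgroup L₁) : Set L₁) →
        Y ≤ Subgroup.normalizer ((imgS (imgS A φ) θ : Subgroup Ω) : Set Ω) := by
      intro A hA hMA z hz
      obtain ⟨y, hy, hzy⟩ := hYmem z hz
      have hzT₁ := hYT₁ hz
      have hAN₀ : A ≤ normalizerIn S (A₁ ⊔ A₂) := hA.trans hB₀N₀
      have hφA : Mor F A φ := hφ.restrict hAN₀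
      have hAB₁ : imgS A φ ≤ imgS (A₁ ⊔ A₂) φ := hφB₀.imgS_mono hA
      have hθA : Mor F (imgS A φ) θ := hθF.restrict hAB₁
      have hle : imgS (imgS A φ) θ ≤ imgS (A₁ ⊔ A₂) φ := by
        rw [← hθimg]
        exact hθF.imgS_mono hAB₁
      have hfin : Finite (imgS (imgS A φ) θ) := hfinS _ (hle.trans hB₁c.1)
      apply mem_normalizer_of_conj_le
      intro w hw
      obtain ⟨v, hv, rfl⟩ := hθA.mem_imgS.1 hw
      have hvT₁ := hB₁T₁ (hAB₁ hv)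
      have h1 : ((y : ↥M) : L₁) * tot ι₁ v * ((y : ↥M) : L₁)⁻¹ ∈ imG ι₁ (imgS A φ) :=
        conj_mem_of_mem_normalizer (hMA y.2) (tot_mem_imG hv hvT₁)
      obtain ⟨v', hv', hv'T, he⟩ := mem_imG.1 h1
      have hθvB := hθB v (hAB₁ hv)
      have h2 : z * θ v * z⁻¹ = θ v' := by
        apply tot_injOn hι₁inj
          (Subgroup.mul_mem _ (Subgroup.mul_mem _ hzT₁ (hB₁T₁ hθvB)) (Subgroup.inv_mem _ hzT₁))
          (hB₁T₁ (hθB v' (hAB₁ hv')))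
        rw [tot_conj ι₁ hzT₁ (hB₁T₁ hθvB), hθx v (hAB₁ hv), hθx v' (hAB₁ hv'), he, hzy]
        group
      rw [h2]
      exact hθA.mem_imgS_of_mem hv'
    exact hcard.trans (hSyl θ hθF hθimg Y hYT₁ (hYn A₁ le_sup_left inf_le_left)
      (hYn A₂ le_sup_right inf_le_right))
  · exact charP_inf_normalizer hcen hJ₁p hJ₂p hJ₁₂

end Cfsg.Agent.H90.X.MS
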